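import Mathlib
import Cfsg.Agent.Lib.Helper51.GL3.Defs

/-!
# S1906 package (I): a homomorphism to `Fˣ` taking the value `-1 ≠ 1` gives a subgroup of index 2
-/

set_option autoImplicit false

universe u v

namespace Cfsg.Agent.Lib.Helper7.GL3

theorem lemIndexTwo : Cfsg.Agent.Lib.Helper51.GL3.LemIndexTwo.{u, v} := by
  intro G _ _ F _ T g hg hne
  classical
  have : Finite T.range := Finite.of_surjective T.rangeRestrict T.rangeRestrict_surjective
  have : IsCyclic T.range :=
    isCyclic_of_subgroup_isDomain ((Units.coeHom F).comp T.range.subtype)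
      (fun a b h => Subtype.ext (Units.ext h))
  set n := Nat.card T.range with hn
  -- `n` is even
  have h2n : 2 ∣ n := by
    have ho : orderOf (⟨-1, ⟨g, hg⟩⟩ : T.range) = 2 := by
      have : Fact (Nat.Prime 2) := ⟨Nat.prime_two⟩
      apply orderOf_eq_prime
      · apply Subtype.ext
        simp
      · intro h
        exact hne (congrArg Subtype.val h)
    rw [← ho]
    exact orderOf_dvd_natCard _
  obtain ⟨m, hm⟩ := h2n
  have hnpos : 0 < n := Nat.card_pos
  have hmpos : 0 < m := by omega
  -- a generator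
  obtain ⟨c, hc⟩ := IsCyclic.exists_generator (α := T.range)
  have hoc : orderOf c = n := orderOf_eq_card_of_forall_mem_zpowers hc
  obtain ⟨x₀, hx₀⟩ := c.2
  let ψ : G →* Fˣ := (powMonoidHom m).comp T
  have hψ : ∀ x, ψ x = T x ^ m := fun x => rfl
  have hsq : ∀ x, ψ x ^ 2 = 1 := by
    intro x
    rw [hψ, ← pow_mul, mul_comm, ← hm]
    have h := pow_card_eq_one' (G := T.range) (x := ⟨T x, ⟨x, rfl⟩⟩)
    have h' := congrArg Subtype.val h
    rw [Subgroup.coe_pow] at h'
    exact h'
  have hcases : ∀ x, ψ x = 1 ∨ ψ x = -1 := by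
    intro x
    have h := hsq x
    have h1 : ((ψ x : Fˣ) : F) * ((ψ x : Fˣ) : F) = 1 := by
      rw [← sq, ← Units.val_pow_eq_pow_val, h]; rfl
    rcases mul_self_eq_one_iff.mp h1 with h2 | h2
    · left; exact Units.ext h2
    · right; exact Units.ext (by rw [h2]; rfl)
  have hx₀ne : ψ x₀ ≠ 1 := by
    intro h
    rw [hψ, hx₀] at h
    have h' : c ^ m = 1 := Subtype.ext (by rw [Subgroup.coe_pow]; exact h)
    have := orderOf_dvd_of_pow_eq_one h'
    rw [hoc] at this
    have := Nat.le_of_dvd hmpos this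
    omega
  have hx₀' : ψ x₀ = -1 := (hcases x₀).resolve_left hx₀ne
  refine ⟨ψ.ker, ?_⟩
  rw [Subgroup.index_ker]
  have hr : (ψ.range : Set Fˣ) = {1, -1} := by
    ext y
    constructor
    · rintro ⟨x, rfl⟩
      rcases hcases x with h | h
      · left; exact h
      · right; exact h
    · rintro (h | h)
      · exact ⟨1, by rw [map_one, h]⟩
      · exact ⟨x₀, by rw [hx₀', h]⟩
  have : Nat.card ψ.range = Nat.card (({1, -1} : Set Fˣ)) := by
    rw [← hr]; rfl
  rw [this, Nat.card_eq_fintype_card]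
  simp [Finset.card_insert_of_notMem, hne.symm]

end Cfsg.Agent.Lib.Helper7.GL3
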